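import Mathlib

/-!
Linear groups all of whose orbits have prime power size: systems of blocks.
-/

set_option autoImplicit false
set_option linter.unusedSectionVars false
set_option linter.style.haveILetI false

namespace Cfsg.Agent.FGS3.BaerPrime

open MulAction

variable {V : Type*} [CommGroup V] [Finite V]

/-- All orbits have sizes powers of `p`. -/
def OrbP (p : ℕ) (X : Subgroup (MulAut V)) : Prop :=
  ∀ v : V, ∃ a : ℕ, (stabilizer (MulAut V) v).relIndex X = p ^ a

/-- No invariant subgroups but the trivial ones. -/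
def Irr (P : Subgroup (MulAut V)) : Prop :=
  ∀ U : Subgroup V, (∀ g ∈ P, ∀ u ∈ U, g u ∈ U) → U = ⊥ ∨ U = ⊤

/-- A system of `p` separated blocks permuted cyclically. -/
structure Blocks (p : ℕ) (P : Subgroup (MulAut V)) where
  W : ZMod p → Subgroup V
  sep : ∀ i, ∃ f : V →* V, (∀ x ∈ W i, f x = 1 → x = 1) ∧ ∀ j, j ≠ i → ∀ x ∈ W j, f x = 1
  ne_bot : ∀ i, W i ≠ ⊥
  ne_top : ∀ i, W i ≠ ⊤
  perm : ∀ g ∈ P, ∃ c : ZMod p, ∀ i, (W i).map g.toMonoidHom = W (i + c)
  gen : ∃ g ∈ P, ∀ i, (W i).map g.toMonoidHom = W (i + 1)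

/-- The fixed points of an automorphism. -/
def fix (e : MulAut V) : Subgroup V := MonoidHom.eqLocus e.toMonoidHom (MonoidHom.id V)

theorem mem_fix {e : MulAut V} {v : V} : v ∈ fix e ↔ e v = v := Iff.rfl

theorem map_fix (g e : MulAut V) : (fix e).map g.toMonoidHom = fix (g * e * g⁻¹) := by
  ext v
  rw [Subgroup.mem_map]
  constructor
  · rintro ⟨u, hu, rfl⟩
    show g (e (g⁻¹ (g u))) = g u
    rw [MulAut.inv_apply_self, mem_fix.1 hu]
  · intro hv
    refine ⟨g⁻¹ v, mem_fix.2 ?_, MulAut.apply_inv_self V g v⟩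
    have : g (e (g⁻¹ v)) = v := hv
    conv_rhs => rw [← this, MulAut.inv_apply_self]

theorem fix_eq_top {e : MulAut V} (h : fix e = ⊤) : e = 1 :=
  MulEquiv.ext fun v => mem_fix.1 (h ▸ Subgroup.mem_top v)

theorem fix_invariant {P : Subgroup (MulAut V)} {e : MulAut V} (hc : ∀ g ∈ P, g * e = e * g) :
    ∀ g ∈ P, ∀ u ∈ fix e, g u ∈ fix e := fun g hg u hu => by
  rw [mem_fix] at hu ⊢
  show (e * g) u = g u
  rw [← hc g hg]
  show g (e u) = g u
  rw [hu]

/-- The product of the powers of an automorphism. -/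
def normProd (p : ℕ) (e : MulAut V) : V →* V :=
  ∏ k ∈ Finset.range p, (e ^ k).toMonoidHom

theorem normProd_apply (p : ℕ) (e : MulAut V) (x : V) :
    normProd p e x = ∏ k ∈ Finset.range p, (e ^ k) x := by
  simp [normProd, MonoidHom.finsetProd_apply]

theorem normProd_fixed {p : ℕ} {e : MulAut V} (he : e ^ p = 1) (x : V) :
    e (normProd p e x) = normProd p e x := by
  rw [normProd_apply, map_prod]
  have h1 := Finset.prod_range_succ' (fun k => (e ^ k) x) p
  have h2 := Finset.prod_range_succ (fun k => (e ^ k) x) p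
  rw [h2, he, pow_zero] at h1
  refine Eq.trans ?_ (mul_right_cancel h1).symm
  refine Finset.prod_congr rfl fun k _ => ?_
  rw [pow_succ']; rfl

theorem normProd_of_fixed {p : ℕ} {e : MulAut V} {x : V} (hx : e x = x) : normProd p e x = x ^ p := by
  rw [normProd_apply, Finset.prod_congr rfl (g := fun _ => x), Finset.prod_const, Finset.card_range]
  intro k _
  clear * - hx
  induction k with
  | zero => simp
  | succ k ih => rw [pow_succ]; show (e ^ k) (e x) = x; rw [hx, ih]

/-- Two commuting elements of order `p` generating a non-cyclic group normal in `P` give blocks. -/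
theorem blocks_of_pair {p : ℕ} [hp : Fact p.Prime] {P : Subgroup (MulAut V)} (hirr : Irr P)
    (hcop : ∀ x : V, x ^ p = 1 → x = 1) {z w : MulAut V} (_hz : z ∈ P) (hw : w ∈ P) (hz1 : z ≠ 1)
    (hzc : ∀ g ∈ P, g * z = z * g) (hzp : z ^ p = 1) (hwp : w ^ p = 1)
    (hwz : w ∉ Subgroup.zpowers z) (hcomm : ∀ g ∈ P, g * w * g⁻¹ * w⁻¹ ∈ Subgroup.zpowers z) :
    Nonempty (Blocks p P) := by
  classical
  have hfz : fix z = ⊥ := (hirr _ (fix_invariant hzc)).resolve_right fun h => hz1 (fix_eq_top h)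
  have hzo : orderOf z = p := orderOf_eq_prime hzp hz1
  have hzm : ∀ a b : ℕ, a ≡ b [MOD p] → z ^ a = z ^ b := fun a b h => pow_eq_pow_iff_modEq.2 (hzo.symm ▸ h)
  let zp : ZMod p → MulAut V := fun c => z ^ c.val
  have zp_add : ∀ a b : ZMod p, zp (a + b) = zp a * zp b := fun a b => by
    show z ^ (a + b).val = z ^ a.val * z ^ b.val
    rw [← pow_add]
    refine hzm _ _ ?_
    rw [ZMod.val_add]; exact Nat.mod_modEq _ _
  have hzw : Commute z w := (hzc w hw).symm
  -- a fixed point of `z ^ i`, `i` prime to `p`, is fixed by `z`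
  have hzi : ∀ i : ℕ, ¬ p ∣ i → ∀ x : V, (z ^ i) x = x → x = 1 := by
    intro i hi x hx
    obtain ⟨m, -, hm⟩ := Nat.exists_mul_mod_eq_of_coprime (n := i) (k := p) 1
      ((hp.out.coprime_iff_not_dvd).2 hi).symm hp.out.ne_zero
    have h1 : ((z ^ i) ^ m) x = x := by
      clear * - hx
      induction m with
      | zero => simp
      | succ m ih => rw [pow_succ]; show ((z ^ i) ^ m) ((z ^ i) x) = x; rw [hx]; exact ih
    rw [← pow_mul, hzm (i * m) 1 hm, pow_one] at h1
    have : x ∈ fix z := h1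
    rwa [hfz, Subgroup.mem_bot] at this
  -- some element of the coset `w⟨z⟩` has fixed points
  have hcomzw : ∀ j : ℕ, Commute w (z ^ j) := fun j => (hzw.pow_left j).symm
  obtain ⟨j0, hj0⟩ : ∃ j : ℕ, fix (w * z ^ j) ≠ ⊥ := by
    by_contra hcon
    push Not at hcon
    obtain ⟨v, hv⟩ : ∃ v : V, v ≠ 1 := by
      by_contra hno
      push Not at hno
      exact hz1 (MulEquiv.ext fun v => by rw [hno v, map_one, map_one])
    refine hv (hcop v ?_)
    have h1 : ∀ j : ℕ, normProd p (w * z ^ j) v = 1 := fun j => by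
      have : normProd p (w * z ^ j) v ∈ fix (w * z ^ j) := normProd_fixed (by
        rw [(hcomzw j).mul_pow, hwp, one_mul, ← pow_mul, mul_comm, pow_mul, hzp, one_pow]) v
      rwa [hcon j, Subgroup.mem_bot] at this
    have h2 : ∏ j ∈ Finset.range p, normProd p (w * z ^ j) v = 1 := Finset.prod_eq_one fun j _ => h1 j
    simp only [normProd_apply] at h2
    rw [Finset.prod_comm] at h2
    rw [← h2, Finset.prod_eq_single 0]
    · simp
    · intro i hi hi0
      have hip : ¬ p ∣ i := fun h => by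
        have := Nat.le_of_dvd (Nat.pos_of_ne_zero hi0) h
        rw [Finset.mem_range] at hi
        omega
      have e : ∀ j, ((w * z ^ j) ^ i) v = (w ^ i) (((z ^ i) ^ j) v) := fun j => by
        rw [(hcomzw j).mul_pow, ← pow_mul, mul_comm j i, pow_mul]; rfl
      rw [Finset.prod_congr rfl fun j _ => e j, ← map_prod, ← normProd_apply,
        hzi i hip _ (normProd_fixed (by rw [← pow_mul, mul_comm, pow_mul, hzp, one_pow]) v), map_one]
    · intro h; exact absurd (Finset.mem_range.2 hp.out.pos) h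
  set e0 := w * z ^ j0 with he0
  let e : ZMod p → MulAut V := fun i => e0 * zp i
  have hep : ∀ i, (e i) ^ p = 1 := fun i => by
    show (e0 * z ^ i.val) ^ p = 1
    rw [he0, mul_assoc, ← pow_add, (hcomzw _).mul_pow, hwp, one_mul, ← pow_mul, mul_comm, pow_mul, hzp, one_pow]
  have hne1 : ∀ i, e i ≠ 1 := fun i h => hwz (by
    have h' : w * z ^ (j0 + i.val) = 1 := by rw [pow_add, ← mul_assoc]; exact h
    rw [eq_inv_of_mul_eq_one_left h']
    exact Subgroup.inv_mem _ (Subgroup.pow_mem _ (Subgroup.mem_zpowers z) _))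
  have hc : ∀ g ∈ P, ∃ c : ZMod p, ∀ i, g * e i * g⁻¹ = e (i + c) := by
    intro g hg
    obtain ⟨m, hm⟩ := mem_powers_iff_mem_zpowers.2 (hcomm g hg)
    refine ⟨(m : ZMod p), fun i => ?_⟩
    have hm' : z ^ m = g * w * g⁻¹ * w⁻¹ := hm
    have hmw : g * w * g⁻¹ = w * z ^ m := by
      rw [(hcomzw m).eq, hm']; group
    have hgz : ∀ k : ℕ, g * z ^ k * g⁻¹ = z ^ k := fun k => by
      rw [((show Commute g z from hzc g hg).pow_right k).eq, mul_inv_cancel_right]
    show g * (w * z ^ j0 * z ^ i.val) * g⁻¹ = w * z ^ j0 * zp (i + m)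
    rw [zp_add, show zp (m : ZMod p) = z ^ m from hzm _ _ (by rw [ZMod.val_natCast]; exact Nat.mod_modEq _ _)]
    calc g * (w * z ^ j0 * z ^ i.val) * g⁻¹ = (g * w * g⁻¹) * (g * z ^ j0 * g⁻¹) * (g * z ^ i.val * g⁻¹) := by group
      _ = w * (z ^ m * z ^ j0 * z ^ i.val) := by rw [hmw, hgz, hgz]; group
      _ = w * z ^ j0 * (zp i * z ^ m) := by
          show _ = w * z ^ j0 * (z ^ i.val * z ^ m)
          simp only [mul_assoc, ← pow_add]
          congr 2
          omega
  have hmap : ∀ g ∈ P, ∀ c : ZMod p, (∀ i, g * e i * g⁻¹ = e (i + c)) →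
      ∀ i, (fix (e i)).map g.toMonoidHom = fix (e (i + c)) := fun g _ c h i => by rw [map_fix, h]
  obtain ⟨g1, hg1, hgen⟩ : ∃ g ∈ P, ∀ i, g * e i * g⁻¹ = e (i + 1) := by
    obtain ⟨g, hg, c, hcc, hc0⟩ : ∃ g ∈ P, ∃ c : ZMod p, (∀ i, g * e i * g⁻¹ = e (i + c)) ∧ c ≠ 0 := by
      by_contra hno
      push Not at hno
      have hcen : ∀ g ∈ P, g * e 0 = e 0 * g := fun g hg => by
        obtain ⟨c, hcc⟩ := hc g hg
        have := hcc 0
        rw [hno g hg c hcc, add_zero, mul_inv_eq_iff_eq_mul] at this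
        exact this
      rcases hirr _ (fix_invariant hcen) with h | h
      · have h0 : e 0 = e0 := by show e0 * z ^ (0 : ZMod p).val = e0; rw [ZMod.val_zero, pow_zero, mul_one]
        rw [h0] at h
        exact hj0 h
      · exact hne1 0 (fix_eq_top h)
    have hpow : ∀ (n : ℕ) (i : ZMod p), g ^ n * e i * (g ^ n)⁻¹ = e (i + n • c) := by
      intro n
      induction n with
      | zero => intro i; simp
      | succ n ih =>
        intro i
        rw [pow_succ, mul_inv_rev, show g ^ n * g * e i * (g⁻¹ * (g ^ n)⁻¹) = g ^ n * (g * e i * g⁻¹) * (g ^ n)⁻¹ by group,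
          hcc, ih, succ_nsmul', add_assoc]
    refine ⟨g ^ (c⁻¹).val, P.pow_mem hg _, fun i => ?_⟩
    rw [hpow, nsmul_eq_mul, ZMod.natCast_val, ZMod.cast_id', id_eq, inv_mul_cancel₀ hc0]
  have hnb : ∀ i : ZMod p, fix (e i) ≠ ⊥ := by
    have hstep : ∀ n : ℕ, fix (e (n : ZMod p)) ≠ ⊥ := by
      intro n
      induction n with
      | zero =>
        show fix (e0 * z ^ ((0 : ℕ) : ZMod p).val) ≠ ⊥
        rw [Nat.cast_zero, ZMod.val_zero, pow_zero, mul_one]; exact hj0
      | succ n ih =>
        rw [Nat.cast_succ, ← hmap g1 hg1 1 hgen]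
        exact fun h => ih ((Subgroup.map_eq_bot_iff_of_injective _ g1.injective).1 h)
    intro i
    rw [← ZMod.natCast_zmod_val i]
    exact hstep _
  refine ⟨{ W := fun i => fix (e i)
            sep := fun i => ⟨normProd p (e i), fun x hx h => ?_, fun j hj x hx => ?_⟩
            ne_bot := hnb
            ne_top := fun i h => hne1 i (fix_eq_top h)
            perm := fun g hg => (hc g hg).imp fun c hcc => hmap g hg c hcc
            gen := ⟨g1, hg1, hmap g1 hg1 1 hgen⟩ }⟩
  · rw [normProd_of_fixed (mem_fix.1 hx)] at h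
    exact hcop x h
  · have hec : Commute (e j) (e i) := by
      have hE : ∀ a : ZMod p, e a = w * z ^ (j0 + a.val) := fun a => by rw [pow_add, ← mul_assoc]
      rw [hE, hE]
      exact ((Commute.refl w).mul_right (hcomzw _)).mul_left
        ((hcomzw _).symm.mul_right (((Commute.refl z).pow_left _).pow_right _))
    have h1 : e i (normProd p (e i) x) = normProd p (e i) x := normProd_fixed (hep i) x
    have h2 : e j (normProd p (e i) x) = normProd p (e i) x := by
      rw [normProd_apply, map_prod]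
      refine Finset.prod_congr rfl fun k _ => ?_
      show (e j * e i ^ k) x = (e i ^ k) x
      rw [(hec.pow_right k).eq]
      show (e i ^ k) (e j x) = _
      rw [mem_fix.1 hx]
    have hji : ¬ p ∣ (j - i).val := by
      intro h
      have h0 : (j - i).val = 0 := Nat.eq_zero_of_dvd_of_lt h (ZMod.val_lt _)
      exact hj (sub_eq_zero.1 ((ZMod.val_eq_zero _).1 h0))
    refine hzi _ hji _ ?_
    set y := normProd p (e i) x
    have h3 : e j = e i * zp (j - i) := by
      show e0 * zp j = e0 * zp i * zp (j - i)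
      rw [mul_assoc e0 (zp i), ← zp_add, add_sub_cancel]
    rw [h3] at h2
    change e i ((z ^ (j - i).val) y) = y at h2
    exact (e i).injective (h2.trans h1.symm)

/-- A reducible subgroup of index two gives blocks. -/
theorem blocks_of_index_two {P M : Subgroup (MulAut V)} (hirr : Irr P) (hMP : M ≤ P)
    (hidx : M.relIndex P = 2) (hred : ¬ Irr M) : Nonempty (Blocks 2 P) := by
  classical
  obtain ⟨U0, hU0, hU0b, hU0t⟩ : ∃ U : Subgroup V, (∀ g ∈ M, ∀ u ∈ U, g u ∈ U) ∧ U ≠ ⊥ ∧ U ≠ ⊤ := by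
    simp only [Irr, not_forall, not_or] at hred
    obtain ⟨U, h1, h2, h3⟩ := hred
    exact ⟨U, h1, h2, h3⟩
  obtain ⟨U, ⟨hUinv, hUb, hUt⟩, hUmin⟩ := Set.Finite.exists_minimal (Set.toFinite
    {U : Subgroup V | (∀ g ∈ M, ∀ u ∈ U, g u ∈ U) ∧ U ≠ ⊥ ∧ U ≠ ⊤}) ⟨U0, hU0, hU0b, hU0t⟩
  obtain ⟨g, hg, hgM⟩ : ∃ g ∈ P, g ∉ M := by
    by_contra hno
    push Not at hno
    rw [Subgroup.relIndex_eq_one.2 hno] at hidx
    omega
  have hmul : ∀ a ∈ P, ∀ b ∈ P, (a * b ∈ M ↔ (a ∈ M ↔ b ∈ M)) := fun a ha b hb => by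
    have := Subgroup.mul_mem_iff_of_index_two (H := M.subgroupOf P) hidx (a := ⟨a, ha⟩) (b := ⟨b, hb⟩)
    simpa [Subgroup.mem_subgroupOf] using this
  have hconjM : ∀ a ∈ P, ∀ m ∈ M, a⁻¹ * m * a ∈ M := fun a ha m hm => by
    rw [hmul _ (P.mul_mem (P.inv_mem ha) (hMP hm)) _ ha, hmul _ (P.inv_mem ha) _ (hMP hm)]
    exact ⟨fun h => (Subgroup.inv_mem_iff M).1 (h.2 hm), fun h => ⟨fun _ => hm, fun _ => M.inv_mem h⟩⟩
  set U' := U.map g.toMonoidHom with hU'
  have hU'inv : ∀ m ∈ M, ∀ u ∈ U', m u ∈ U' := by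
    rintro m hm _ ⟨u, hu, rfl⟩
    refine ⟨(g⁻¹ * m * g) u, hUinv _ (hconjM g hg m hm) u hu, ?_⟩
    show (g * (g⁻¹ * m * g)) u = (m * g) u
    congr 1
    group
  have hmapM : ∀ m ∈ M, ∀ S : Subgroup V, (∀ m ∈ M, ∀ u ∈ S, m u ∈ S) → S.map m.toMonoidHom = S := by
    intro m hm S hS
    refine le_antisymm ?_ fun u hu => ⟨m⁻¹ u, hS _ (M.inv_mem hm) u hu, MulAut.apply_inv_self V m u⟩
    rintro _ ⟨u, hu, rfl⟩
    exact hS m hm u hu
  have hswap : ∀ a ∈ P, a ∉ M → U.map a.toMonoidHom = U' ∧ U'.map a.toMonoidHom = U := by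
    intro a ha haM
    have h1 : g⁻¹ * a ∈ M :=
      (hmul _ (P.inv_mem hg) _ ha).2 ⟨fun h => absurd ((Subgroup.inv_mem_iff M).1 h) hgM, fun h => absurd h haM⟩
    have h2 : a * g ∈ M := (hmul _ ha _ hg).2 ⟨fun h => absurd h haM, fun h => absurd h hgM⟩
    constructor
    · rw [hU']
      conv_rhs => rw [← hmapM _ h1 U hUinv]
      rw [Subgroup.map_map]
      congr 1
      ext u
      exact (MulAut.apply_inv_self V g (a u)).symm
    · rw [hU', Subgroup.map_map]
      exact hmapM _ h2 U hUinv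
  have hPinv : ∀ S : Subgroup V, (∀ m ∈ M, ∀ u ∈ S, m u ∈ S) →
      (∀ a ∈ P, a ∉ M → ∀ u ∈ S, a u ∈ S) → S = ⊥ ∨ S = ⊤ := fun S h1 h2 => hirr S fun a ha =>
    if h : a ∈ M then h1 a h else h2 a ha h
  have hdisj : U ⊓ U' = ⊥ := by
    by_contra hne
    have heq : U ⊓ U' = U := le_antisymm inf_le_left
      (hUmin ⟨fun m hm u hu => ⟨hUinv m hm u hu.1, hU'inv m hm u hu.2⟩, hne,
        fun h => hUt (top_le_iff.1 (h ▸ inf_le_left))⟩ inf_le_left)
    have hUU' : U = U' := Subgroup.eq_of_le_of_card_ge (inf_eq_left.1 heq)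
      (le_of_eq (Subgroup.card_map_of_injective g.injective))
    rcases hPinv U hUinv (fun a ha haM u hu => by
      have : a u ∈ U' := (hswap a ha haM).1 ▸ ⟨u, hu, rfl⟩
      rwa [← hUU'] at this) with h | h
    · exact hUb h
    · exact hUt h
  have hsup : U ⊔ U' = ⊤ := by
    refine (hPinv (U ⊔ U') ?_ ?_).resolve_left fun h => hUb (le_bot_iff.1 (h ▸ le_sup_left))
    · intro m hm u hu
      rw [← hmapM m hm U hUinv, ← hmapM m hm U' hU'inv, ← Subgroup.map_sup]
      exact ⟨u, hu, rfl⟩
    · intro a ha haM u hu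
      rw [sup_comm, ← (hswap a ha haM).1, show U = U'.map a.toMonoidHom from (hswap a ha haM).2.symm,
        ← Subgroup.map_sup]
      rw [(hswap a ha haM).2, sup_comm]
      exact ⟨u, by rwa [sup_comm], rfl⟩
  -- projections
  let e : U × U' →* V := U.subtype.coprod U'.subtype
  have hbij : Function.Bijective e := by
    constructor
    · rw [injective_iff_map_eq_one]
      rintro ⟨⟨u, hu⟩, ⟨u', hu'⟩⟩ h
      change u * u' = 1 at h
      have h1 : u ∈ U ⊓ U' := ⟨hu, by rw [eq_inv_of_mul_eq_one_left h]; exact U'.inv_mem hu'⟩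
      rw [hdisj, Subgroup.mem_bot] at h1
      subst h1
      rw [one_mul] at h
      subst h
      rfl
    · intro v
      obtain ⟨u, hu, u', hu', h⟩ := Subgroup.mem_sup.1 (hsup ▸ Subgroup.mem_top v)
      exact ⟨(⟨u, hu⟩, ⟨u', hu'⟩), h⟩
  let E := MulEquiv.ofBijective e hbij
  have hU : ∀ u : V, ∀ hu : u ∈ U, E.symm u = (⟨u, hu⟩, 1) := fun u hu => by
    rw [MulEquiv.symm_apply_eq]; exact (mul_one u).symm
  have hU2 : ∀ u : V, ∀ hu : u ∈ U', E.symm u = (1, ⟨u, hu⟩) := fun u hu => by
    rw [MulEquiv.symm_apply_eq]; exact (one_mul u).symm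
  have h01 : ∀ i : ZMod 2, i = 0 ∨ i = 1 := by decide
  refine ⟨{ W := fun i => if i = 0 then U else U'
            sep := fun i => ?_
            ne_bot := fun i => ?_
            ne_top := fun i => ?_
            perm := fun a ha => ?_
            gen := ⟨g, hg, fun i => ?_⟩ }⟩
  · rcases h01 i with rfl | rfl
    · refine ⟨U.subtype.comp ((MonoidHom.fst U U').comp E.symm.toMonoidHom), fun x hx h => ?_, fun j hj x hx => ?_⟩
      · rw [if_pos rfl] at hx
        have : ((E.symm x).1 : V) = 1 := h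
        rwa [hU x hx] at this
      · rw [if_neg hj] at hx
        show ((E.symm x).1 : V) = 1
        rw [hU2 x hx]; rfl
    · refine ⟨U'.subtype.comp ((MonoidHom.snd U U').comp E.symm.toMonoidHom), fun x hx h => ?_, fun j hj x hx => ?_⟩
      · rw [if_neg one_ne_zero] at hx
        have : ((E.symm x).2 : V) = 1 := h
        rwa [hU2 x hx] at this
      · rw [if_pos ((h01 j).resolve_right hj)] at hx
        show ((E.symm x).2 : V) = 1
        rw [hU x hx]; rfl
  · split_ifs
    · exact hUb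
    · exact fun h => hUb ((Subgroup.map_eq_bot_iff_of_injective _ g.injective).1 h)
  · split_ifs
    · exact hUt
    · intro h
      refine hUt (Subgroup.eq_top_of_card_eq U ?_)
      rw [← Subgroup.card_map_of_injective (K := U) (f := g.toMonoidHom) g.injective, ← hU', h, Subgroup.card_top]
  · by_cases haM : a ∈ M
    · refine ⟨0, fun i => ?_⟩
      rw [add_zero]
      split_ifs
      · exact hmapM a haM U hUinv
      · exact hmapM a haM U' hU'inv
    · refine ⟨1, fun i => ?_⟩
      rcases h01 i with rfl | rfl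
      · rw [if_pos rfl, if_neg (by decide)]; exact (hswap a ha haM).1
      · rw [if_neg one_ne_zero, if_pos (by decide)]; exact (hswap a ha haM).2
  · rcases h01 i with rfl | rfl
    · rw [if_pos rfl, if_neg (by decide)]
    · rw [if_neg one_ne_zero, if_pos (by decide)]; exact (hswap g hg hgM).2

/-- Restriction to an invariant subgroup. -/
def restrict (Y : Subgroup (MulAut V)) (U : Subgroup V) (h : ∀ y ∈ Y, ∀ u ∈ U, y u ∈ U) :
    Y →* MulAut U where
  toFun y :=
    { toFun := fun u => ⟨(y : MulAut V) u, h y y.2 u u.2⟩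
      invFun := fun u => ⟨(y : MulAut V)⁻¹ u, h _ (Y.inv_mem y.2) u u.2⟩
      left_inv := fun u => Subtype.ext (MulAut.inv_apply_self V (y : MulAut V) u)
      right_inv := fun u => Subtype.ext (MulAut.apply_inv_self V (y : MulAut V) u)
      map_mul' := fun u v => Subtype.ext (map_mul (y : MulAut V) (u : V) v) }
  map_one' := rfl
  map_mul' _ _ := rfl

theorem restrict_apply {Y : Subgroup (MulAut V)} {U : Subgroup V} {h : ∀ y ∈ Y, ∀ u ∈ U, y u ∈ U}
    (y : Y) (u : U) : ((restrict Y U h y u : U) : V) = (y : MulAut V) u := rfl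

theorem orbP_range {W : Type*} [CommGroup W] {p : ℕ} {Y : Type*} [Group Y] (f : Y →* MulAut W)
    (h : ∀ w : W, ∃ a, ((stabilizer (MulAut W) w).comap f).index = p ^ a) : OrbP p f.range := fun w => by
  obtain ⟨a, ha⟩ := h w
  exact ⟨a, by rw [← Subgroup.index_comap, ha]⟩

theorem orbP_restrict {p : ℕ} {Y : Subgroup (MulAut V)} (hY : OrbP p Y) {U : Subgroup V}
    (h : ∀ y ∈ Y, ∀ u ∈ U, y u ∈ U) : OrbP p (restrict Y U h).range := by
  refine orbP_range _ fun u => ?_
  obtain ⟨a, ha⟩ := hY (u : V)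
  refine ⟨a, ?_⟩
  rw [← ha, Subgroup.relIndex]
  congr 1
  ext y
  rw [Subgroup.mem_comap, Subgroup.mem_subgroupOf, mem_stabilizer_iff, mem_stabilizer_iff]
  exact ⟨fun e => congrArg Subtype.val e, fun e => Subtype.ext e⟩

/-- The orbit hypothesis passes to normal subgroups. -/
theorem orbP_normal {p : ℕ} (hp : p.Prime) {X : Subgroup (MulAut V)} (hX : OrbP p X) (N : Subgroup X)
    [N.Normal] : OrbP p (N.map X.subtype) := by
  intro v
  obtain ⟨a, ha⟩ := hX v
  set S := (stabilizer (MulAut V) v).subgroupOf X with hS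
  have e : (stabilizer (MulAut V) v).relIndex (N.map X.subtype) = S.relIndex N := by
    rw [hS, Subgroup.subgroupOf, Subgroup.relIndex_comap]
  have h1 : (S ⊓ N).relIndex (S ⊔ N) = N.relIndex S * S.relIndex (S ⊔ N) := by
    rw [← Subgroup.relIndex_mul_relIndex (S ⊓ N) S (S ⊔ N) inf_le_left le_sup_left, Subgroup.inf_relIndex_left]
  have h2 : (S ⊓ N).relIndex (S ⊔ N) = S.relIndex N * N.relIndex (S ⊔ N) := by
    rw [← Subgroup.relIndex_mul_relIndex (S ⊓ N) N (S ⊔ N) inf_le_right le_sup_right, Subgroup.inf_relIndex_right]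
  rw [Subgroup.relIndex_sup_right, mul_comm (S.relIndex N), h1] at h2
  have h3 := Nat.eq_of_mul_eq_mul_left (Nat.pos_of_ne_zero Subgroup.FiniteIndex.index_ne_zero) h2
  obtain ⟨b, -, hb⟩ := (Nat.dvd_prime_pow hp).1 (show S.relIndex N ∣ p ^ a from by
    rw [← ha, ← h3]
    show S.relIndex (S ⊔ N) ∣ S.index
    exact ⟨_, (Subgroup.relIndex_mul_index le_sup_left).symm⟩)
  exact ⟨b, e.trans hb⟩

theorem isSolvable_of_normal_quotient {Y : Type*} [Group Y] (K : Subgroup Y) [K.Normal]
    [Group.IsSolvable K] {A : Type*} [CommGroup A] (f : Y →* A) (h : f.ker ≤ K) : Group.IsSolvable Y :=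
  Group.isSolvable_of_ker_le_range K.subtype f (by rwa [K.range_subtype])

/-- A group with the orbits of a subgroup that permutes blocks cyclically is solvable, provided
its actions on the blocks are. -/
theorem solvable_of_blocks {p : ℕ} [hp : Fact p.Prime] {X P : Subgroup (MulAut V)} (_hPX : P ≤ X)
    (hPirr : Irr P) (hsame : ∀ x ∈ X, ∀ v : V, ∃ π ∈ P, x v = π v) (B : Blocks p P) (hX : OrbP p X)
    (ih : ∀ (U : Subgroup V), U ≠ ⊤ → ∀ (Y : Subgroup (MulAut V)), Y ≤ X → OrbP p Y →
      ∀ (h : ∀ y ∈ Y, ∀ u ∈ U, y u ∈ U), Group.IsSolvable (restrict Y U h).range) :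
    Group.IsSolvable X := by
  classical
  have hW : ∀ i, ∀ a ∈ B.W i, a ≠ 1 → ∀ j, a ∈ B.W j → j = i := by
    intro i a ha ha1 j haj
    by_contra hne
    obtain ⟨f, h1, h2⟩ := B.sep i
    exact ha1 (h1 a ha (h2 j hne a haj))
  have hWinj : Function.Injective B.W := by
    intro i j h
    obtain ⟨a, ha, ha1⟩ := (Subgroup.bot_or_exists_ne_one _).resolve_left (B.ne_bot i)
    exact (hW i a ha ha1 j (h ▸ ha)).symm
  -- images of vectors in blocks
  have hone : ∀ x ∈ X, ∀ i, ∀ a ∈ B.W i, ∃ j, x a ∈ B.W j := by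
    intro x hx i a ha
    obtain ⟨π, hπ, e⟩ := hsame x hx a
    obtain ⟨c, hc⟩ := B.perm π hπ
    exact ⟨i + c, by rw [e, ← hc i]; exact ⟨a, ha, rfl⟩⟩
  have hmapsto : ∀ x : X, ∀ i, ∃ j, (B.W i).map (x : MulAut V).toMonoidHom ≤ B.W j := by
    intro x i
    obtain ⟨a, ha, ha1⟩ := (Subgroup.bot_or_exists_ne_one _).resolve_left (B.ne_bot i)
    obtain ⟨j, hj⟩ := hone x x.2 i a ha
    refine ⟨j, ?_⟩
    rintro _ ⟨b, hb, rfl⟩
    obtain ⟨k, hk⟩ := hone x x.2 i b hb
    by_cases hb1 : b = 1
    · subst hb1; rw [map_one]; exact one_mem _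
    have hxa : (x : MulAut V) a ≠ 1 := fun h => ha1 ((x : MulAut V).injective (h.trans (map_one _).symm))
    have hxb : (x : MulAut V) b ≠ 1 := fun h => hb1 ((x : MulAut V).injective (h.trans (map_one _).symm))
    show (x : MulAut V) b ∈ B.W j
    by_contra hbj
    have hjk : j ≠ k := fun h => hbj (h ▸ hk)
    obtain ⟨l, hl⟩ := hone x x.2 i (a * b) (mul_mem ha hb)
    rw [map_mul] at hl
    by_cases hlj : l = j
    · obtain ⟨f, h1, h2⟩ := B.sep k
      have := h2 l (hlj ▸ hjk) _ hl
      rw [map_mul, h2 j hjk _ hj, one_mul] at this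
      exact hxb (h1 _ hk this)
    · obtain ⟨f, h1, h2⟩ := B.sep j
      have := h2 l hlj _ hl
      rw [map_mul, h2 k hjk.symm _ hk, mul_one] at this
      exact hxa (h1 _ hj this)
  choose σ hσ using hmapsto
  have hcardW : ∀ i, Nat.card (B.W i) = Nat.card (B.W 0) := by
    obtain ⟨g, -, hg⟩ := B.gen
    have : ∀ n : ℕ, Nat.card (B.W (n : ZMod p)) = Nat.card (B.W 0) := by
      intro n
      induction n with
      | zero => rw [Nat.cast_zero]
      | succ n ih => rw [Nat.cast_succ, ← hg, Subgroup.card_map_of_injective g.injective, ih]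
    intro i
    rw [← ZMod.natCast_zmod_val i, this]
  have heq : ∀ (x : X) i, (B.W i).map (x : MulAut V).toMonoidHom = B.W (σ x i) := fun x i =>
    Subgroup.eq_of_le_of_card_ge (hσ x i)
      (le_of_eq (by rw [Subgroup.card_map_of_injective (x : MulAut V).injective, hcardW, hcardW i]))
  have hσmul : ∀ (x y : X) i, σ (x * y) i = σ x (σ y i) := fun x y i => by
    apply hWinj
    rw [← heq, ← heq, ← heq, Subgroup.map_map]
    rfl
  have hσinj : ∀ x : X, Function.Injective (σ x) := fun x i j h => by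
    apply hWinj
    apply Subgroup.map_injective (f := (x : MulAut V).toMonoidHom) (x : MulAut V).injective
    rw [heq, heq, h]
  -- adjacent blocks go to adjacent blocks
  have hadj : ∀ (x : X) i, σ x (i + 1) = σ x i + 1 ∨ σ x (i + 1) = σ x i - 1 := by
    intro x i
    obtain ⟨a, ha, ha1⟩ := (Subgroup.bot_or_exists_ne_one _).resolve_left (B.ne_bot i)
    obtain ⟨b, hb, hb1⟩ := (Subgroup.bot_or_exists_ne_one _).resolve_left (B.ne_bot (i + 1))
    obtain ⟨π, hπ, e⟩ := hsame x x.2 (a * b)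
    obtain ⟨c, hc⟩ := B.perm π hπ
    rw [map_mul, map_mul] at e
    have hxa : (x : MulAut V) a ∈ B.W (σ x i) := hσ x i ⟨a, ha, rfl⟩
    have hxb : (x : MulAut V) b ∈ B.W (σ x (i + 1)) := hσ x (i + 1) ⟨b, hb, rfl⟩
    have hπa : π a ∈ B.W (i + c) := hc i ▸ ⟨a, ha, rfl⟩
    have hπb : π b ∈ B.W (i + 1 + c) := hc (i + 1) ▸ ⟨b, hb, rfl⟩
    have hne : σ x i ≠ σ x (i + 1) := fun h => one_ne_zero (left_eq_add.1 (hσinj x h))
    have key1 : σ x i = i + c ∨ σ x i = i + 1 + c := by
      by_contra hno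
      push Not at hno
      obtain ⟨f, h1, h2⟩ := B.sep (σ x i)
      have := congrArg f e
      rw [map_mul, map_mul, h2 _ hne.symm _ hxb, h2 _ hno.1.symm _ hπa, h2 _ hno.2.symm _ hπb, mul_one, mul_one] at this
      exact ha1 ((x : MulAut V).injective ((h1 _ hxa this).trans (map_one _).symm))
    have key2 : σ x (i + 1) = i + c ∨ σ x (i + 1) = i + 1 + c := by
      by_contra hno
      push Not at hno
      obtain ⟨f, h1, h2⟩ := B.sep (σ x (i + 1))
      have := congrArg f e
      rw [map_mul, map_mul, h2 _ hne _ hxa, h2 _ hno.1.symm _ hπa, h2 _ hno.2.symm _ hπb, one_mul, mul_one] at this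
      exact hb1 ((x : MulAut V).injective ((h1 _ hxb this).trans (map_one _).symm))
    rcases key1 with h | h <;> rcases key2 with h' | h'
    · exact absurd (h.trans h'.symm) hne
    · left; rw [h, h']; ring
    · right; rw [h, h']; ring
    · exact absurd (h.trans h'.symm) hne
  let ε : X → ZMod p := fun x => σ x 1 - σ x 0
  have haff : ∀ (x : X) (n : ℕ), σ x (n : ZMod p) = σ x 0 + n * ε x := by
    intro x n
    induction n using Nat.strong_induction_on with
    | _ n ihn =>
    rcases n with _ | _ | n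
    · simp
    · rw [Nat.cast_one, one_mul]; show σ x 1 = σ x 0 + (σ x 1 - σ x 0); ring
    · have e1 := ihn n (by omega)
      have e2 := ihn (n + 1) (by omega)
      have hstep : ε x = 1 ∨ ε x = -1 := by
        rcases hadj x 0 with h | h <;> rw [zero_add] at h
        · left; show σ x 1 - σ x 0 = 1; rw [h]; ring
        · right; show σ x 1 - σ x 0 = -1; rw [h]; ring
      rcases hadj x ((n + 1 : ℕ) : ZMod p) with h | h <;> rcases hstep with h' | h' <;>
        rw [show (((n + 1 + 1 : ℕ) : ZMod p)) = ((n + 1 : ℕ) : ZMod p) + 1 by push_cast; ring, h, e2, h'] <;>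
        first
          | ring1
          | (have h2 : (2 : ZMod p) = 0 := by
               by_contra h20
               apply h20
               have hback : σ x (((n + 1 : ℕ) : ZMod p) + 1) = σ x (n : ZMod p) := by
                 rw [h, e1, e2, h']; push_cast; ring
               have := hσinj x hback
               push_cast at this
               linear_combination this
             linear_combination h2)
          | (have h2 : (2 : ZMod p) = 0 := by
               by_contra h20
               apply h20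
               have hback : σ x (((n + 1 : ℕ) : ZMod p) + 1) = σ x (n : ZMod p) := by
                 rw [h, e1, e2, h']; push_cast; ring
               have := hσinj x hback
               push_cast at this
               linear_combination this
             linear_combination -h2)
  have haff' : ∀ (x : X) i, σ x i = σ x 0 + i * ε x := fun x i => by
    rw [← ZMod.natCast_zmod_val i, haff]
  have hσ1 : ∀ i, σ 1 i = i := fun i => hWinj (by
    rw [← heq]; exact Subgroup.map_id _)
  let εh : X →* ZMod p :=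
    { toFun := ε
      map_one' := by show σ 1 1 - σ 1 0 = 1; rw [hσ1, hσ1, sub_zero]
      map_mul' := fun x y => by
        show σ (x * y) 1 - σ (x * y) 0 = ε x * ε y
        rw [hσmul, hσmul, haff' x (σ y 1), haff' x (σ y 0)]
        show _ = ε x * (σ y 1 - σ y 0)
        ring }
  set K1 := εh.toHomUnits.ker
  let ch : K1 →* Multiplicative (ZMod p) :=
    { toFun := fun x => Multiplicative.ofAdd (σ x.1 0)
      map_one' := by
        show Multiplicative.ofAdd (σ (1 : X) 0) = 1
        rw [hσ1]; rfl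
      map_mul' := fun x y => by
        show Multiplicative.ofAdd (σ (x.1 * y.1) 0) = Multiplicative.ofAdd (σ x.1 0 + σ y.1 0)
        have hx : ε x.1 = 1 := congrArg Units.val (MonoidHom.mem_ker.1 x.2)
        rw [hσmul, haff' x.1 (σ y.1 0), hx, mul_one] }
  set K0 := ch.ker
  -- the kernel acts on every block
  set Y := (K0.map K1.subtype).map X.subtype with hY
  have hYX : Y ≤ X := Subgroup.map_subtype_le _
  have hK0σ : ∀ x : X, x ∈ K0.map K1.subtype ↔ ∀ i, σ x i = i := by
    intro x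
    constructor
    · rintro ⟨y, hy, rfl⟩ i
      have h1 : ε y.1 = 1 := congrArg Units.val (MonoidHom.mem_ker.1 y.2)
      have h0 : σ y.1 0 = 0 := Multiplicative.ofAdd.injective (MonoidHom.mem_ker.1 hy)
      show σ y.1 i = i
      rw [haff' y.1 i, h1, h0, zero_add, mul_one]
    · intro h
      refine ⟨⟨x, MonoidHom.mem_ker.2 (Units.ext ?_)⟩, MonoidHom.mem_ker.2 ?_, rfl⟩
      · show σ x 1 - σ x 0 = 1; rw [h, h, sub_zero]
      · show Multiplicative.ofAdd (σ x 0) = 1; rw [h]; rfl
  haveI : (K0.map K1.subtype).Normal := ⟨fun n hn g => by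
    rw [hK0σ] at hn ⊢
    intro i
    rw [hσmul, hσmul, hn, ← hσmul, mul_inv_cancel, hσ1]⟩
  have hYorb : OrbP p Y := orbP_normal hp.out hX _
  have hYinv : ∀ i, ∀ y ∈ Y, ∀ u ∈ B.W i, y u ∈ B.W i := by
    rintro i _ ⟨x, hx, rfl⟩ u hu
    have := hσ x i ⟨u, hu, rfl⟩
    rwa [(hK0σ x).1 hx i] at this
  have hYsol : Group.IsSolvable Y := by
    haveI hsol : ∀ i, Group.IsSolvable (restrict Y (B.W i) (hYinv i)).range := fun i =>
      ih _ (B.ne_top i) Y hYX hYorb (hYinv i)
    choose n hn using fun i => (Group.isSolvable_def _).1 (hsol i)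
    refine (Group.isSolvable_def _).2 ⟨∑ i, n i, eq_bot_iff.2 fun y hy => ?_⟩
    have hres : ∀ i, (restrict Y (B.W i) (hYinv i)) y = 1 := by
      intro i
      have h1 : (⟨restrict Y (B.W i) (hYinv i) y, y, rfl⟩ : (restrict Y (B.W i) (hYinv i)).range) ∈
          derivedSeries (restrict Y (B.W i) (hYinv i)).range (n i) := by
        refine derivedSeries_antitone _ (Finset.single_le_sum (fun j _ => Nat.zero_le _) (Finset.mem_univ i)) ?_
        exact map_derivedSeries_le_derivedSeries (restrict Y (B.W i) (hYinv i)).rangeRestrict _ ⟨y, hy, rfl⟩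
      rw [hn i, Subgroup.mem_bot] at h1
      exact congrArg Subtype.val h1
    rw [Subgroup.mem_bot]
    refine Subtype.ext (fix_eq_top ?_)
    have hle : ∀ i, B.W i ≤ fix (y : MulAut V) := fun i u hu => by
      have h1 := congrArg Subtype.val (DFunLike.congr_fun (hres i) (⟨u, hu⟩ : B.W i))
      exact h1
    refine top_le_iff.1 (le_trans ?_ (iSup_le hle))
    rw [top_le_iff]
    refine (hPirr _ fun g hg u hu => ?_).resolve_left fun h =>
      B.ne_bot 0 (le_bot_iff.1 (h ▸ le_iSup B.W 0))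
    obtain ⟨c, hc⟩ := B.perm g hg
    have : g u ∈ (⨆ i, B.W i).map g.toMonoidHom := ⟨u, hu, rfl⟩
    rw [Subgroup.map_iSup] at this
    exact (iSup_le fun i => (hc i).le.trans (le_iSup B.W (i + c))) this
  haveI : Group.IsSolvable (K0.map K1.subtype : Subgroup X) :=
    Group.isSolvable_of_isSolvable_injective
      (Subgroup.equivMapOfInjective (K0.map K1.subtype) X.subtype X.subtype_injective).injective
      (f := ((Subgroup.equivMapOfInjective (K0.map K1.subtype) X.subtype X.subtype_injective)).toMonoidHom)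
  haveI : Group.IsSolvable K0 := Group.isSolvable_of_isSolvable_injective
    (f := (Subgroup.equivMapOfInjective K0 K1.subtype K1.subtype_injective).toMonoidHom)
    (Subgroup.equivMapOfInjective K0 K1.subtype K1.subtype_injective).injective
  haveI : Group.IsSolvable K1 := isSolvable_of_normal_quotient K0 ch le_rfl
  exact isSolvable_of_normal_quotient K1 εh.toHomUnits le_rfl

end Cfsg.Agent.FGS3.BaerPrime
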