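import Cfsg.Agent.PermGroups.CyclicBGroup

/-!
Schur's theorem for prime power degree: a primitive group with a regular cyclic subgroup of order
`p ^ b`, `b ≥ 2`, is doubly transitive.
-/

set_option autoImplicit false
set_option linter.unusedSectionVars false
set_option linter.style.haveILetI false

namespace Cfsg.Agent.FGS3.BaerPrime

open MulAction Cfsg.Agent.PermGroups.CyclicBGroup

variable {G Ω : Type*} [Group G] [Finite G] [Fintype Ω] [MulAction G Ω] {C : Subgroup G} {a : Ω}
  {p : ℕ} [hp : Fact p.Prime]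

/-- The suborbit of `s`, as a set of elements of the regular subgroup. -/
def Sub (C : Subgroup G) (a : Ω) (s : C) : Set C :=
  {t | ∃ g ∈ stabilizer G a, g • ((s : G) • a) = (t : G) • a}

theorem inv_sub (htr : ∀ x : Ω, ∃ c : C, (c : G) • a = x) (s : C) : Inv C a (Sub C a s) := by
  rintro g hg t ⟨g', hg', e⟩
  obtain ⟨t', ht'⟩ := htr (g • ((t : C) : G) • a)
  exact ⟨t', ⟨g * g', Subgroup.mul_mem _ hg hg', by rw [mul_smul, e, ht']⟩, ht'.symm⟩

theorem self_mem_sub (s : C) : s ∈ Sub C a s := ⟨1, Subgroup.one_mem _, one_smul _ _⟩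

theorem one_notMem_sub (hfree : ∀ x : Ω, stabilizer C x = ⊥) {s : C} (hs : s ≠ 1) :
    (1 : C) ∉ Sub C a s := by
  rintro ⟨g, hg, e⟩
  refine hs (eq_of_smul_eq hfree (u := a) ?_)
  rw [Subgroup.coe_one, one_smul] at e ⊢
  exact smul_left_cancel g (e.trans (mem_stabilizer_iff.1 hg).symm)

theorem sub_subset (hfree : ∀ x : Ω, stabilizer C x = ⊥) {T : Set C} (hT : Inv C a T) {s : C}
    (hs : s ∈ T) : Sub C a s ⊆ T := by
  rintro t ⟨g, hg, e⟩
  obtain ⟨t', ht', e'⟩ := hT g hg s hs
  rwa [eq_of_smul_eq hfree (e.symm.trans e')]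

theorem sub_symm {s t : C} (h : t ∈ Sub C a s) : s ∈ Sub C a t := by
  obtain ⟨g, hg, e⟩ := h
  exact ⟨g⁻¹, Subgroup.inv_mem _ hg, by rw [← e, inv_smul_smul]⟩

variable (hcomm : IsMulCommutative C) (htr : ∀ x : Ω, ∃ c : C, (c : G) • a = x)
  (hfree : ∀ x : Ω, stabilizer C x = ⊥) {b : ℕ} (hcard : Nat.card C = p ^ b)
include hcomm htr hfree hcard

omit hcomm htr hfree in
theorem pow_injective {m : ℕ} (hm : ¬ p ∣ m) : Function.Injective (fun x : C => x ^ m) :=
  (powCoprime (hcard ▸ (((hp.out.coprime_iff_not_dvd).2 hm).pow_left b))).injective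

/-- The image of an invariant set under a power map prime to `p` is invariant. -/
theorem inv_image_pow : ∀ m : ℕ, ¬ p ∣ m → ∀ T : Set C, Inv C a T →
    Inv C a ((fun x : C => x ^ m) '' T) := by
  classical
  haveI := Fintype.ofFinite C
  intro m
  induction m using Nat.recOnMul with
  | zero => intro h; exact absurd (dvd_zero p) h
  | one => intro _ T hT; simpa using hT
  | prime l hl =>
    intro hpl T hT
    haveI := Fact.mk hl
    have h := inv_powers (p := l) hcomm htr hfree hT
    convert h using 1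
    ext y
    simp only [Set.mem_image, Set.mem_ofPred_eq]
    refine ⟨?_, fun hy => ?_⟩
    · rintro ⟨t, ht, rfl⟩
      rw [show ((Finset.univ : Finset C).filter fun u => u ∈ T ∧ u ^ l = t ^ l) = {t} from ?_,
        Finset.card_singleton, Nat.cast_one]
      · exact one_ne_zero
      · ext u
        simp only [Finset.mem_filter, Finset.mem_univ, true_and, Finset.mem_singleton]
        exact ⟨fun hu => pow_injective hcard hpl hu.2, fun hu => by subst hu; exact ⟨ht, rfl⟩⟩
    · by_contra hno
      push Not at hno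
      refine hy ?_
      rw [Finset.filter_eq_empty_iff.2 (fun u _ hu => hno u hu.1 hu.2), Finset.card_empty, Nat.cast_zero]
  | mul m n ihm ihn =>
    intro hmn T hT
    have h := ihn (fun h => hmn (h.mul_left m)) _ (ihm (fun h => hmn (h.mul_right n)) T hT)
    rw [Set.image_image] at h
    simpa [pow_mul] using h

/-- A power map which carries a member of a suborbit into it fixes the suborbit. -/
theorem pow_mem_sub {m : ℕ} (hm : ¬ p ∣ m) {s x : C} (hx : x ∈ Sub C a s) (hxm : x ^ m ∈ Sub C a s)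
    {y : C} (hy : y ∈ Sub C a s) : y ^ m ∈ Sub C a s := by
  have h1 : Sub C a s ⊆ (fun u : C => u ^ m) '' Sub C a s := fun t ht =>
    sub_subset hfree (inv_image_pow hcomm htr hfree hcard m hm _ (inv_sub htr s)) ⟨x, hx, rfl⟩ (by
      have := sub_subset hfree (inv_sub htr (x ^ m)) (sub_symm hxm)
      exact this ht)
  have h2 : (fun u : C => u ^ m) '' Sub C a s = Sub C a s :=
    (Set.eq_of_subset_of_ncard_le h1
      (le_of_eq (Set.ncard_image_of_injective _ (pow_injective hcard hm))) (Set.toFinite _)).symm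
  rw [← h2]
  exact ⟨y, hy, rfl⟩

omit htr hfree in
/-- In a cyclic `p`-group an element is a power of any element of at least the same order. -/
theorem exists_pow_eq (hcyc : IsCyclic C) {t u : C} {i : ℕ} (ht : orderOf t = p ^ i)
    (hu : u ^ (p ^ i) = 1) : ∃ k : ℕ, t ^ k = u := by
  haveI := hcyc
  have h1 : Subgroup.zpowers u ≤ Subgroup.zpowers t := by
    obtain ⟨g, hg⟩ := IsCyclic.exists_monoid_generator (α := C)
    obtain ⟨et, rfl⟩ := hg t
    obtain ⟨eu, rfl⟩ := hg u
    set N := orderOf g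
    have hN : N = p ^ b := by
      rw [← hcard]
      exact orderOf_eq_card_of_forall_mem_powers hg
    rw [Subgroup.zpowers_le]
    obtain ⟨f, hf⟩ : ∃ f, f ≤ b ∧ N.gcd et = p ^ f := (Nat.dvd_prime_pow hp.out).1 (hN ▸ Nat.gcd_dvd_left _ _)
    have hdiv : p ^ f ∣ eu := by
      have hi : p ^ i = p ^ (b - f) := by
        rw [← ht, orderOf_pow, hf.2, (show orderOf g = p ^ b from hN), Nat.pow_div hf.1 hp.out.pos]
      rw [← pow_mul, hi] at hu
      have := orderOf_dvd_of_pow_eq_one hu
      rw [show orderOf g = N from rfl, hN, show b = f + (b - f) by omega, pow_add,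
        show f + (b - f) - f = b - f by omega] at this
      exact Nat.dvd_of_mul_dvd_mul_right (pow_pos hp.out.pos _) this
    have hgcd : g ^ (p ^ f) ∈ Subgroup.zpowers (g ^ et) := by
      rw [← hf.2, ← zpow_natCast g (N.gcd et), Nat.gcd_eq_gcd_ab, zpow_add, zpow_mul, zpow_mul, zpow_natCast,
        pow_orderOf_eq_one, one_zpow, one_mul, zpow_natCast]
      exact Subgroup.zpow_mem _ (Subgroup.mem_zpowers _) _
    obtain ⟨c, rfl⟩ := hdiv
    show g ^ (p ^ f * c) ∈ Subgroup.zpowers (g ^ et)
    rw [pow_mul]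
    exact Subgroup.pow_mem _ hgcd c
  exact (mem_powers_iff_mem_zpowers.2 (h1 (Subgroup.mem_zpowers u)))

/-- Two elements of order `p ^ (i + 1)` with the same power `p ^ i` differ by a power map `≡ 1`. -/
theorem mem_sub_of_lead (hcyc : IsCyclic C) {s t u : C} {i : ℕ} (ht : orderOf t = p ^ (i + 1))
    (hu : orderOf u = p ^ (i + 1)) (hlead : t ^ p ^ i = u ^ p ^ i) {z : C} (hz : z ∈ Sub C a s)
    (hzp : orderOf z = p) (hts : t ∈ Sub C a s) : u ∈ Sub C a s := by
  obtain ⟨k, rfl⟩ := exists_pow_eq hcomm hcard hcyc ht (u := u) (by rw [← hu, pow_orderOf_eq_one])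
  have hk : k ≡ 1 [MOD p] := by
    rw [← pow_mul, mul_comm, pow_mul] at hlead
    have ho : orderOf (t ^ p ^ i) = p := by
      rw [orderOf_pow, ht, Nat.gcd_eq_right (pow_dvd_pow p i.le_succ), pow_succ,
        Nat.mul_div_cancel_left _ (pow_pos hp.out.pos i)]
    rw [← ho]
    exact (pow_eq_pow_iff_modEq.1 (by rw [pow_one]; exact hlead.symm))
  have hkp : ¬ p ∣ k := fun h => by
    have := (Nat.modEq_zero_iff_dvd.2 h).symm.trans hk
    rw [Nat.ModEq, Nat.zero_mod, Nat.mod_eq_of_lt hp.out.one_lt] at this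
    omega
  refine pow_mem_sub hcomm htr hfree hcard hkp hz ?_ hts
  rw [show z ^ k = z from by rw [pow_eq_pow_iff_modEq.2 (hzp ▸ hk), pow_one]]
  exact hz

/-- The number of common neighbours is constant on a suborbit. -/
theorem count_eq {s x y : C} (hx : x ∈ Sub C a s) (hy : y ∈ Sub C a s) :
    {u : C | u ∈ Sub C a s ∧ x⁻¹ * u ∈ Sub C a s}.ncard =
      {u : C | u ∈ Sub C a s ∧ y⁻¹ * u ∈ Sub C a s}.ncard := by
  set T := Sub C a s
  have hT := inv_sub htr (a := a) (C := C) s
  have hc := hcomm.is_comm.comm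
  have key : ∀ w : C, {u : C | u ∈ T ∧ w⁻¹ * u ∈ T}.ncard =
      {v : Ω | Rel C T a v ∧ Rel C T ((w : G) • a) v}.ncard := by
    intro w
    refine Set.ncard_congr (fun u _ => (u : G) • a) ?_ ?_ ?_
    · rintro u ⟨h1, h2⟩
      exact ⟨⟨u, h1, rfl⟩, ⟨w⁻¹ * u, h2, by rw [← mul_smul, ← Subgroup.coe_mul, hc (w⁻¹ * u) w, mul_inv_cancel_left]⟩⟩
    · exact fun u v _ _ e => eq_of_smul_eq hfree e
    · rintro v ⟨⟨u, hu, rfl⟩, ⟨t, ht, e⟩⟩
      rw [← mul_smul, ← Subgroup.coe_mul, hc t w] at e
      refine ⟨u, ⟨hu, ?_⟩, rfl⟩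
      rwa [← eq_of_smul_eq hfree e, inv_mul_cancel_left]
  obtain ⟨g, hg, e⟩ : ∃ g ∈ stabilizer G a, g • ((x : G) • a) = (y : G) • a := by
    obtain ⟨g1, h1, e1⟩ := hx
    obtain ⟨g2, h2, e2⟩ := hy
    exact ⟨g2 * g1⁻¹, Subgroup.mul_mem _ h2 (Subgroup.inv_mem _ h1), by rw [mul_smul, ← e1, inv_smul_smul, e2]⟩
  rw [key x, key y, ← e]
  have hga := mem_stabilizer_iff.1 hg
  refine Set.ncard_congr (fun v _ => g • v) ?_ (fun _ _ _ _ h => smul_left_cancel g h) ?_
  · rintro v ⟨h1, h2⟩
    exact ⟨hga ▸ rel_smul hcomm htr hT g h1, rel_smul hcomm htr hT g h2⟩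
  · rintro v ⟨h1, h2⟩
    refine ⟨g⁻¹ • v, ⟨?_, ?_⟩, smul_inv_smul g v⟩
    · have := rel_smul hcomm htr hT g⁻¹ h1
      rwa [show g⁻¹ • a = a from mem_stabilizer_iff.1 (Subgroup.inv_mem _ hg)] at this
    · have := rel_smul hcomm htr hT g⁻¹ h2
      rwa [inv_smul_smul] at this

omit htr hfree in
theorem orderOf_eq_prime_pow' (x : C) : ∃ i, orderOf x = p ^ i :=
  ((Nat.dvd_prime_pow hp.out).1 (hcard ▸ orderOf_dvd_natCard x)).imp fun _ h => h.2

set_option maxHeartbeats 800000 in
/-- A suborbit meeting the subgroup of order `p` and not inside it contains all of it. -/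
theorem order_p_mem (hcyc : IsCyclic C) {s z : C} (hs : s ≠ 1) (hzT : z ∈ Sub C a s) (hzp : orderOf z = p)
    (hbig : ∃ t ∈ Sub C a s, t ^ p ≠ 1) : ∀ w : C, orderOf w = p → w ∈ Sub C a s := by
  classical
  haveI := Fintype.ofFinite C
  set T := Sub C a s with hTdef
  have hc := hcomm.is_comm.comm
  letI : CommGroup C := { (inferInstance : Group C) with mul_comm := hc }
  have h1T : (1 : C) ∉ T := one_notMem_sub hfree hs
  have hex : ∃ j, ∃ t ∈ T, orderOf t = p ^ (j + 2) := by
    obtain ⟨t, ht, htp⟩ := hbig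
    obtain ⟨i, hi⟩ := orderOf_eq_prime_pow' hcomm hcard t
    rcases i with _ | _ | i
    · exact absurd (by rw [orderOf_eq_one_iff.1 (by rwa [pow_zero] at hi : orderOf t = 1), one_pow]) htp
    · exact absurd (by rw [← (pow_one p ▸ hi : orderOf t = p), pow_orderOf_eq_one]) htp
    · exact ⟨i, t, ht, hi⟩
  set j := Nat.find hex with hjdef
  obtain ⟨y, hyT, hy⟩ := Nat.find_spec hex
  rw [← hjdef] at hy
  have hmin : ∀ t ∈ T, t ^ p ^ (j + 1) = 1 → orderOf t = p := by
    intro t ht hte
    obtain ⟨i, hi⟩ := orderOf_eq_prime_pow' hcomm hcard t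
    have hile : i ≤ j + 1 :=
      (Nat.pow_dvd_pow_iff_le_right hp.out.one_lt).1 (hi ▸ orderOf_dvd_of_pow_eq_one hte)
    rcases i with _ | _ | i
    · exact absurd ((orderOf_eq_one_iff.1 (by rwa [pow_zero] at hi)) ▸ ht) h1T
    · rwa [pow_one] at hi
    · exact absurd (Nat.find_min' hex ⟨t, ht, hi⟩) (by rw [← hjdef]; omega)
  set P := p ^ (j + 1) with hP
  have hpP : p ∣ P := dvd_pow_self p (Nat.succ_ne_zero j)
  let π : C → C := fun u => u ^ P
  have hπmul : ∀ u v : C, π (u * v) = π u * π v := fun u v => mul_pow u v P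
  have hπy : orderOf (π y) = p := by
    rw [orderOf_pow, hy, hP, Nat.gcd_eq_right (pow_dvd_pow p (Nat.le_succ _)), pow_succ,
      Nat.mul_div_cancel_left _ (pow_pos hp.out.pos _)]
  -- elements of the two sorts
  set A : Finset C := Finset.univ.filter fun u => u ∈ T ∧ u ^ p = 1 with hA
  set J : Finset C := Finset.univ.filter fun u => u ∈ T ∧ orderOf u = p ^ (j + 2) with hJ
  set H : Finset C := Finset.univ.filter fun u => u ∈ T ∧ p ^ (j + 2) < orderOf u with hH
  have hmemA : ∀ u, u ∈ A ↔ u ∈ T ∧ u ^ p = 1 := fun u => by simp [hA]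
  have hsort : ∀ u ∈ T, u ∈ A ∨ u ∈ J ∨ u ∈ H := by
    intro u hu
    obtain ⟨i, hi⟩ := orderOf_eq_prime_pow' hcomm hcard u
    rcases lt_trichotomy i (j + 2) with h | h | h
    · refine Or.inl ((hmemA u).2 ⟨hu, ?_⟩)
      rw [← hmin u hu (orderOf_dvd_iff_pow_eq_one.1 (hi ▸ pow_dvd_pow p (by omega))), pow_orderOf_eq_one]
    · exact Or.inr (Or.inl (by simp [hJ, hu, hi, h]))
    · exact Or.inr (Or.inr (by simp [hH, hu, hi, Nat.pow_lt_pow_iff_right hp.out.one_lt, h]))
  have hAJ : ∀ u ∈ A, orderOf u = p := by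
    intro u hu
    rw [hmemA] at hu
    exact orderOf_eq_prime hu.2 fun e => h1T (e ▸ hu.1)
  have hord_mem : ∀ u ∈ T, orderOf u ≠ p → ∀ v : C, orderOf v = orderOf u →
      (∀ i, orderOf u = p ^ (i + 1) → u ^ p ^ i = v ^ p ^ i) → v ∈ T := by
    intro u hu hne v hv hlead
    obtain ⟨i, hi⟩ := orderOf_eq_prime_pow' hcomm hcard u
    rcases i with _ | i
    · exact absurd ((orderOf_eq_one_iff.1 (by rwa [pow_zero] at hi)) ▸ hu) h1T
    exact mem_sub_of_lead hcomm htr hfree hcard hcyc hi (hv.trans hi) (hlead i hi) hzT hzp hu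
  -- translating an element of large order by one of smaller order
  have hshift : ∀ (u v : C) (i : ℕ), orderOf u = p ^ (i + 1) → v ^ p ^ i = 1 →
      orderOf (v * u) = p ^ (i + 1) ∧ (v * u) ^ p ^ i = u ^ p ^ i := by
    intro u v i hu hv
    have e : (v * u) ^ p ^ i = u ^ p ^ i := by rw [mul_pow, hv, one_mul]
    refine ⟨orderOf_eq_prime_pow ?_ ?_, e⟩
    · rw [e]; intro h
      have := Nat.le_of_dvd (pow_pos hp.out.pos i) (hu ▸ orderOf_dvd_of_pow_eq_one h)
      exact absurd this (not_le.2 (Nat.pow_lt_pow_right hp.out.one_lt (Nat.lt_succ_self i)))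
    · rw [mul_pow, pow_succ p i, pow_mul v, hv, one_pow, one_mul, ← pow_succ p i, ← hu, pow_orderOf_eq_one]
  have hAdvd : ∀ u : C, u ^ p = 1 → u ^ P = 1 := fun u hu => by
    obtain ⟨c, hc'⟩ := hpP
    rw [hc', pow_mul, hu, one_pow]
  -- the count at `z`
  have hz1 : z ^ p = 1 := hzp ▸ pow_orderOf_eq_one z
  have hNz : {u : C | u ∈ T ∧ z⁻¹ * u ∈ T}.ncard =
      (A.filter fun u => z⁻¹ * u ∈ T).card + J.card + H.card := by
    rw [← Finset.card_union_of_disjoint, ← Finset.card_union_of_disjoint, ← Set.ncard_coe_finset]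
    · congr 1
      ext u
      simp only [Finset.coe_union, Set.mem_union, Finset.mem_coe, Finset.mem_filter, Set.mem_ofPred_eq]
      constructor
      · rintro ⟨hu, hzu⟩
        rcases hsort u hu with h | h | h
        · exact Or.inl (Or.inl ⟨h, hzu⟩)
        · exact Or.inl (Or.inr h)
        · exact Or.inr h
      · rintro ((⟨h, hzu⟩ | h) | h)
        · exact ⟨((hmemA u).1 h).1, hzu⟩
        all_goals
          simp only [hJ, hH, Finset.mem_filter, Finset.mem_univ, true_and] at h
          refine ⟨h.1, ?_⟩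
          obtain ⟨i, hi⟩ := orderOf_eq_prime_pow' hcomm hcard u
          have hi2 : j + 2 ≤ i := by
            refine (Nat.pow_le_pow_iff_right hp.out.one_lt).1 ?_
            rw [← hi]
            first | exact le_of_eq h.2.symm | exact le_of_lt h.2
          obtain ⟨i, rfl⟩ := Nat.exists_eq_succ_of_ne_zero (show i ≠ 0 by omega)
          have hzi : z⁻¹ ^ p ^ i = 1 := by
            obtain ⟨c, hc'⟩ : p ∣ p ^ i := dvd_pow_self p (by omega)
            rw [hc', pow_mul, inv_pow, hz1, inv_one, one_pow]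
          obtain ⟨h3, h4⟩ := hshift u z⁻¹ i hi hzi
          refine hord_mem u h.1 ?_ _ (h3.trans hi.symm) fun i' hi' => ?_
          · intro e
            rw [hi] at e
            have := Nat.pow_right_injective hp.out.two_le (e.trans (pow_one p).symm)
            omega
          · have : i' = i := by
              have := Nat.pow_right_injective hp.out.two_le (hi'.symm.trans hi)
              omega
            subst this
            exact h4.symm
    all_goals
      rw [Finset.disjoint_left]
      intro u hu hu'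
      simp only [Finset.mem_union, Finset.mem_filter, hJ, hH, Finset.mem_univ, true_and] at hu hu'
    · rcases hu with hu | hu
      · have := hAJ u hu.1
        have h2 : p < p ^ (j + 2) := by
          calc p = p ^ 1 := (pow_one p).symm
            _ < p ^ (j + 2) := Nat.pow_lt_pow_right hp.out.one_lt (by omega)
        omega
      · omega
    · have := hAJ u hu.1
      have h2 : p < p ^ (j + 2) := by
        calc p = p ^ 1 := (pow_one p).symm
          _ < p ^ (j + 2) := Nat.pow_lt_pow_right hp.out.one_lt (by omega)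
      omega
  -- the leading parts
  set B : Finset C := J.image π with hB
  have hJmem : ∀ u, u ∈ J ↔ u ∈ T ∧ orderOf u = p ^ (j + 2) := fun u => by simp [hJ]
  have hπJ : ∀ u, orderOf u = p ^ (j + 2) → π u ≠ 1 := by
    intro u hu e
    have := Nat.le_of_dvd (pow_pos hp.out.pos _) (hu ▸ orderOf_dvd_of_pow_eq_one (n := P) e)
    exact absurd this (not_le.2 (Nat.pow_lt_pow_right hp.out.one_lt (by omega)))
  have hπp : ∀ u, u ^ p ^ (j + 2) = 1 → (π u) ^ p = 1 := fun u hu => by
    show (u ^ P) ^ p = 1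
    rw [← pow_mul, hP, ← pow_succ]; exact hu
  have hlead : ∀ u : C, u ^ p ^ (j + 2) = 1 → π u ∈ B → u ∈ J := by
    intro u hu hb
    obtain ⟨v, hv, e⟩ := Finset.mem_image.1 hb
    rw [hJmem] at hv ⊢
    have hu' : orderOf u = p ^ (j + 2) := by
      refine orderOf_eq_prime_pow ?_ hu
      intro h
      exact hπJ v hv.2 (e.trans h)
    refine ⟨hord_mem v hv.1 ?_ u (hu'.trans hv.2.symm) fun i hi => ?_, hu'⟩
    · rw [hv.2]
      intro e'
      have := Nat.pow_right_injective hp.out.two_le (e'.trans (pow_one p).symm)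
      omega
    · have : i = j + 1 := by
        have := Nat.pow_right_injective hp.out.two_le (hi.symm.trans hv.2)
        omega
      subst this
      exact e
  obtain ⟨l, hl⟩ := exists_pow_eq hcomm hcard hcyc (t := z) (i := 1) (by rw [pow_one]; exact hzp) (u := π y)
    (by rw [pow_one, ← hπy, pow_orderOf_eq_one])
  have hlp : ¬ p ∣ l := fun ⟨c, hcl⟩ => by
    rw [hcl, pow_mul, hz1, one_pow] at hl
    rw [← hl, orderOf_one] at hπy
    exact hp.out.one_lt.ne hπy
  have hAB : B = A.image (fun x => x ^ l) := by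
    ext β
    simp only [hB, Finset.mem_image]
    constructor
    · rintro ⟨u, hu, rfl⟩
      rw [hJmem] at hu
      obtain ⟨m, rfl⟩ := exists_pow_eq hcomm hcard hcyc hy (u := u) (by rw [← hu.2, pow_orderOf_eq_one])
      have hmp : ¬ p ∣ m := fun ⟨c, hcm⟩ => hπJ _ hu.2 (by
        show (y ^ m) ^ P = 1
        rw [← pow_mul, hcm, show p * c * P = P * p * c by ring, hP, ← pow_succ, pow_mul, ← hy,
          pow_orderOf_eq_one, one_pow])
      refine ⟨z ^ m, (hmemA _).2 ⟨pow_mem_sub hcomm htr hfree hcard hmp hyT hu.1 hzT, ?_⟩, ?_⟩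
      · rw [← pow_mul, mul_comm, pow_mul, hz1, one_pow]
      · show (z ^ m) ^ l = (y ^ m) ^ P
        rw [← pow_mul, mul_comm, pow_mul, hl, ← pow_mul, ← pow_mul, mul_comm]
    · rintro ⟨x, hx, rfl⟩
      obtain ⟨m, rfl⟩ := exists_pow_eq hcomm hcard hcyc (t := z) (i := 1) (by rw [pow_one]; exact hzp)
        (u := x) (by rw [pow_one]; exact ((hmemA x).1 hx).2)
      have hmp : ¬ p ∣ m := fun ⟨c, hcm⟩ => h1T (by
        have := ((hmemA _).1 hx).1
        rwa [hcm, pow_mul, hz1, one_pow] at this)
      have hym := pow_mem_sub hcomm htr hfree hcard hmp hzT ((hmemA _).1 hx).1 hyT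
      refine ⟨y ^ m, (hJmem _).2 ⟨hym, ?_⟩, ?_⟩
      · rw [Nat.Coprime.orderOf_pow (hy ▸ ((hp.out.coprime_iff_not_dvd).2 hmp).pow_left _), hy]
      · show (y ^ m) ^ P = (z ^ m) ^ l
        rw [← pow_mul z, mul_comm, pow_mul, hl, ← pow_mul, ← pow_mul, mul_comm]
  have hlinj := pow_injective hcard hlp (C := C)
  set K1 : Finset C := Finset.univ.filter fun u => u ^ P = 1 with hK1
  have hK1card : K1.card = P := by
    haveI := hcyc
    have hk := IsCyclic.card_powMonoidHom_ker (G := C) P
    have hjb : j + 2 ≤ b := (Nat.pow_dvd_pow_iff_le_right hp.out.one_lt).1 (hy ▸ hcard ▸ orderOf_dvd_natCard y)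
    rw [hcard, Nat.gcd_eq_right (pow_dvd_pow p (by omega))] at hk
    have h7 : Nat.card {u : C // u ^ P = 1} = P := hk
    rw [Nat.card_eq_fintype_card] at h7
    rw [hK1]
    exact (Fintype.card_subtype _).symm.trans h7
  have hfib : ∀ β ∈ B, (J.filter fun u => π u = β).card = P := by
    intro β hβ
    obtain ⟨v, hv, rfl⟩ := Finset.mem_image.1 hβ
    rw [← hK1card]
    refine Finset.card_bij (fun u _ => v⁻¹ * u) (fun u hu => ?_) (fun _ _ _ _ e => mul_left_cancel e)
      (fun k hk => ⟨v * k, ?_, inv_mul_cancel_left v k⟩)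
    · simp only [hK1, Finset.mem_filter, Finset.mem_univ, true_and] at hu ⊢
      show (v⁻¹ * u) ^ P = 1
      rw [mul_pow, inv_pow, show u ^ P = v ^ P from hu.2, inv_mul_cancel]
    · simp only [hK1, Finset.mem_filter, Finset.mem_univ, true_and] at hk ⊢
      have e : π (v * k) = π v := by rw [hπmul, show π k = 1 from hk, mul_one]
      refine ⟨hlead _ ?_ (e ▸ hβ), e⟩
      rw [mul_pow, ← ((hJmem v).1 hv).2, pow_orderOf_eq_one, ((hJmem v).1 hv).2, pow_succ, pow_mul]
      show 1 * (k ^ P) ^ p = 1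
      rw [hk, one_pow, one_mul]
  have hJcard : J.card = P * A.card := by
    rw [Finset.card_eq_sum_card_image π J, Finset.sum_congr rfl hfib, Finset.sum_const, smul_eq_mul,
      mul_comm, hAB, Finset.card_image_of_injective _ hlinj]
  -- the count at `y`
  set c := (A.filter fun u => z⁻¹ * u ∈ T).card with hcdef
  set ind : ℕ := if y⁻¹ ∈ T then 1 else 0 with hind
  have hyu : ∀ u ∈ J, (y⁻¹ * u) ^ p ^ (j + 2) = 1 := fun u hu => by
    rw [mul_pow, inv_pow]
    nth_rw 1 [← hy]
    rw [← ((hJmem u).1 hu).2, pow_orderOf_eq_one, pow_orderOf_eq_one, inv_one, one_mul]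
  have hJy : (J.filter fun u => y⁻¹ * u ∈ T).card = A.card + P * c := by
    have hsplit := Finset.card_filter_add_card_filter_not (s := J.filter fun u => y⁻¹ * u ∈ T)
      (fun u => π u = π y)
    rw [← hsplit]
    congr 1
    · refine Finset.card_bij (fun u _ => y⁻¹ * u) (fun u hu => ?_) (fun _ _ _ _ e => mul_left_cancel e)
        (fun x hx => ⟨y * x, ?_, inv_mul_cancel_left y x⟩)
      · simp only [Finset.mem_filter] at hu
        have e : (y⁻¹ * u) ^ P = 1 := by
          rw [mul_pow, inv_pow, show u ^ P = y ^ P from hu.2, inv_mul_cancel]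
        exact (hmemA _).2 ⟨hu.1.2, by rw [← hmin _ hu.1.2 e, pow_orderOf_eq_one]⟩
      · rw [hmemA] at hx
        have e : π (y * x) = π y := by rw [hπmul, show π x = 1 from hAdvd x hx.2, mul_one]
        simp only [Finset.mem_filter, inv_mul_cancel_left]
        refine ⟨⟨hlead _ ?_ (e ▸ Finset.mem_image_of_mem π ((hJmem y).2 ⟨hyT, hy⟩)), hx.1⟩, e⟩
        rw [mul_pow, ← hy, pow_orderOf_eq_one, one_mul, hy, pow_succ, pow_mul, show x ^ P = 1 from hAdvd x hx.2,
          one_pow]
    · have e1 : ((J.filter fun u => y⁻¹ * u ∈ T).filter fun u => ¬ π u = π y) =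
          J.filter fun u => (π y)⁻¹ * π u ∈ B := by
        ext u
        simp only [Finset.mem_filter]
        have e : π (y⁻¹ * u) = (π y)⁻¹ * π u := by rw [hπmul]; simp [π]
        constructor
        · rintro ⟨⟨hu, hm⟩, hne⟩
          refine ⟨hu, Finset.mem_image.2 ⟨y⁻¹ * u, (hJmem _).2 ⟨hm, orderOf_eq_prime_pow ?_ (hyu u hu)⟩, e⟩⟩
          intro h
          apply hne
          have : (π y)⁻¹ * π u = 1 := e ▸ h
          rwa [inv_mul_eq_one, eq_comm] at this
        · rintro ⟨hu, hm⟩
          have h1 := hlead _ (hyu u hu) (e.symm ▸ hm)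
          refine ⟨⟨hu, ((hJmem _).1 h1).1⟩, fun he => ?_⟩
          obtain ⟨v, hv, hv'⟩ := Finset.mem_image.1 hm
          exact hπJ v ((hJmem v).1 hv).2 (by rw [hv', he, inv_mul_cancel])
      rw [e1]
      have e2 : (J.filter fun u => (π y)⁻¹ * π u ∈ B).card =
          ∑ β ∈ B.filter (fun β => (π y)⁻¹ * β ∈ B), (J.filter fun u => π u = β).card := by
        rw [Finset.card_eq_sum_card_fiberwise (f := π) (t := B.filter fun β => (π y)⁻¹ * β ∈ B)
          (fun u hu => by
            have hu' := Finset.mem_filter.1 hu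
            exact Finset.mem_filter.2 ⟨Finset.mem_image_of_mem π hu'.1, hu'.2⟩)]
        refine Finset.sum_congr rfl fun β hβ => congrArg Finset.card ?_
        ext u
        simp only [Finset.mem_filter] at hβ ⊢
        exact ⟨fun h => ⟨h.1.1, h.2⟩, fun h => ⟨⟨h.1, h.2 ▸ hβ.2⟩, h.2⟩⟩
      rw [e2, Finset.sum_congr rfl (fun β hβ => hfib β (Finset.mem_filter.1 hβ).1), Finset.sum_const,
        smul_eq_mul, mul_comm]
      congr 1
      rw [hAB, Finset.filter_image, Finset.card_image_of_injective _ hlinj, hcdef]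
      congr 1
      ext x
      simp only [Finset.mem_filter, Finset.mem_image]
      refine and_congr_right fun hx => ⟨?_, fun h => ⟨z⁻¹ * x, (hmemA _).2 ⟨h, ?_⟩, ?_⟩⟩
      · rintro ⟨x', hx', e⟩
        have : x' = z⁻¹ * x := hlinj (by
          show x' ^ l = (z⁻¹ * x) ^ l
          rw [e, mul_pow, inv_pow, hl])
        exact this ▸ ((hmemA _).1 hx').1
      · rw [mul_pow, inv_pow, hz1, ((hmemA x).1 hx).2, inv_one, one_mul]
      · rw [mul_pow, inv_pow, hl]
  have hNy : {u : C | u ∈ T ∧ y⁻¹ * u ∈ T}.ncard =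
      ind * A.card + (A.card + P * c) + H.card := by
    have hAy : (A.filter fun u => y⁻¹ * u ∈ T).card = ind * A.card := by
      have e : ∀ u ∈ A, (y⁻¹ * u ∈ T ↔ y⁻¹ ∈ T) := by
        intro u hu
        have hu1 : u ^ p ^ (j + 1) = 1 := hAdvd u ((hmemA u).1 hu).2
        obtain ⟨h3, h4⟩ := hshift y⁻¹ u (j + 1) (by rw [orderOf_inv]; exact hy) hu1
        rw [mul_comm u] at h3 h4
        have hne : p ^ (j + 2) ≠ p := fun e' => by
          have := Nat.pow_right_injective hp.out.two_le (e'.trans (pow_one p).symm)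
          omega
        constructor
        · intro h
          refine hord_mem _ h (by rw [h3]; exact hne) _ (by rw [h3, orderOf_inv, hy]) fun i hi => ?_
          have : i = j + 1 := by
            have := Nat.pow_right_injective hp.out.two_le (hi.symm.trans h3)
            omega
          subst this
          exact h4
        · intro h
          refine hord_mem _ h (by rw [orderOf_inv, hy]; exact hne) _ (by rw [h3, orderOf_inv, hy]) fun i hi => ?_
          have : i = j + 1 := by
            have := Nat.pow_right_injective hp.out.two_le (hi.symm.trans ((orderOf_inv y).trans hy))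
            omega
          subst this
          exact h4.symm
      rw [Finset.filter_congr e]
      by_cases h : y⁻¹ ∈ T
      · simp [hind, h]
      · simp [hind, h]
    rw [← hAy, ← hJy, ← Finset.card_union_of_disjoint, ← Finset.card_union_of_disjoint, ← Set.ncard_coe_finset]
    · congr 1
      ext u
      simp only [Finset.coe_union, Set.mem_union, Finset.mem_coe, Finset.mem_filter, Set.mem_ofPred_eq]
      constructor
      · rintro ⟨hu, hzu⟩
        rcases hsort u hu with h | h | h
        · exact Or.inl (Or.inl ⟨h, hzu⟩)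
        · exact Or.inl (Or.inr ⟨h, hzu⟩)
        · exact Or.inr h
      · rintro ((⟨h, hzu⟩ | ⟨h, hzu⟩) | h)
        · exact ⟨((hmemA u).1 h).1, hzu⟩
        · exact ⟨((hJmem u).1 h).1, hzu⟩
        · simp only [hH, Finset.mem_filter, Finset.mem_univ, true_and] at h
          refine ⟨h.1, ?_⟩
          obtain ⟨i, hi⟩ := orderOf_eq_prime_pow' hcomm hcard u
          have hi2 : j + 2 < i := (Nat.pow_lt_pow_iff_right hp.out.one_lt).1 (hi ▸ h.2)
          obtain ⟨i, rfl⟩ := Nat.exists_eq_succ_of_ne_zero (show i ≠ 0 by omega)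
          have hyi : y⁻¹ ^ p ^ i = 1 := by
            rw [inv_pow, inv_eq_one]
            exact orderOf_dvd_iff_pow_eq_one.1 (hy ▸ pow_dvd_pow p (by omega))
          obtain ⟨h3, h4⟩ := hshift u y⁻¹ i hi hyi
          refine hord_mem u h.1 ?_ _ (h3.trans hi.symm) fun i' hi' => ?_
          · intro e
            rw [hi] at e
            have := Nat.pow_right_injective hp.out.two_le (e.trans (pow_one p).symm)
            omega
          · have : i' = i := by
              have := Nat.pow_right_injective hp.out.two_le (hi'.symm.trans hi)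
              omega
            subst this
            exact h4.symm
    all_goals
      rw [Finset.disjoint_left]
      intro u hu hu'
      simp only [Finset.mem_union, Finset.mem_filter, hJ, hH, Finset.mem_univ, true_and] at hu hu'
    · rcases hu with hu | hu
      · have := hAJ u hu.1
        have h2 : p < p ^ (j + 2) := by
          calc p = p ^ 1 := (pow_one p).symm
            _ < p ^ (j + 2) := Nat.pow_lt_pow_right hp.out.one_lt (by omega)
        omega
      · omega
    · have := hAJ u hu.1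
      have h2 : p < p ^ (j + 2) := by
        calc p = p ^ 1 := (pow_one p).symm
          _ < p ^ (j + 2) := Nat.pow_lt_pow_right hp.out.one_lt (by omega)
      omega
  -- the equation
  have heq := count_eq hcomm htr hfree hcard hzT hyT
  rw [← hTdef, hNz, hNy, hJcard] at heq
  have hclt : c < A.card := by
    refine Finset.card_lt_card ⟨Finset.filter_subset _ _, fun h => ?_⟩
    have := (Finset.mem_filter.1 (h ((hmemA z).2 ⟨hzT, hz1⟩))).2
    rw [inv_mul_cancel] at this
    exact h1T this
  have hAle : A.card ≤ p - 1 := by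
    haveI := hcyc
    have hk := IsCyclic.card_powMonoidHom_ker (G := C) p
    have hb : p ∣ Nat.card C := by
      rw [← hzp]; exact orderOf_dvd_natCard z
    rw [Nat.gcd_eq_right hb] at hk
    have h6 : Nat.card {u : C // u ^ p = 1} = p := hk
    rw [Nat.card_eq_fintype_card] at h6
    have : A ⊆ (Finset.univ.filter fun u : C => u ^ p = 1).erase 1 := fun u hu => by
      rw [hmemA] at hu
      simp only [Finset.mem_erase, Finset.mem_filter, Finset.mem_univ, true_and]
      exact ⟨fun e => h1T (e ▸ hu.1), hu.2⟩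
    refine (Finset.card_le_card this).trans (le_of_eq ?_)
    rw [Finset.card_erase_of_mem (by simp), ← Fintype.card_subtype]
    exact congrArg (· - 1) h6
  have hP1 : p ≤ P := Nat.le_self_pow (Nat.succ_ne_zero j) p
  have hn : A.card = p - 1 := by
    rcases Decidable.em (y⁻¹ ∈ T) with h | h
    · rw [hind, if_pos h, one_mul] at heq
      -- `(P - 1) c = (P - 2) n`
      obtain ⟨Q, hQ⟩ : ∃ Q, P = Q + 1 := ⟨P - 1, by have := hp.out.two_le; omega⟩
      rw [hQ] at heq
      have h2 : Q * A.card = Q * c + A.card := by nlinarith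
      have h3 : Q ∣ A.card := (Nat.dvd_add_right (dvd_mul_right Q c)).1 (h2 ▸ dvd_mul_right Q A.card)
      have h4 := Nat.le_of_dvd (lt_of_le_of_lt (Nat.zero_le c) hclt) h3
      omega
    · rw [hind, if_neg h, zero_mul] at heq
      exfalso
      obtain ⟨Q, hQ⟩ : ∃ Q, P = Q + 1 := ⟨P - 1, by have := hp.out.two_le; omega⟩
      rw [hQ] at heq
      have h2 : Q * A.card = Q * c := by nlinarith
      have := Nat.eq_of_mul_eq_mul_left (by have := hp.out.two_le; omega) h2
      omega
  intro w hw
  have hw1 : w ^ p = 1 := hw ▸ pow_orderOf_eq_one w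
  by_contra hwT
  have hwA : w ∉ A := fun h => hwT ((hmemA w).1 h).1
  haveI := hcyc
  have hk := IsCyclic.card_powMonoidHom_ker (G := C) p
  rw [Nat.gcd_eq_right (by rw [← hzp]; exact orderOf_dvd_natCard z)] at hk
  have h6 : Nat.card {u : C // u ^ p = 1} = p := hk
  rw [Nat.card_eq_fintype_card] at h6
  have hsub : insert w A ⊆ (Finset.univ.filter fun u : C => u ^ p = 1).erase 1 := fun u hu => by
    simp only [Finset.mem_erase, Finset.mem_filter, Finset.mem_univ, true_and]
    rcases Finset.mem_insert.1 hu with rfl | hu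
    · exact ⟨fun e => by rw [e, orderOf_one] at hw; exact hp.out.one_lt.ne hw, hw1⟩
    · rw [hmemA] at hu
      exact ⟨fun e => h1T (e ▸ hu.1), hu.2⟩
  have h5 := Finset.card_le_card hsub
  rw [Finset.card_insert_of_notMem hwA, hn, Finset.card_erase_of_mem (by simp), ← Fintype.card_subtype] at h5
  have := hp.out.two_le
  omega

omit hcomm hcard in
/-- Schur's theorem in prime power degree. -/
theorem two_transitive_prime_pow (hprim : IsPreprimitive G Ω) (hcyc : IsCyclic C) (hb : 2 ≤ b)
    (hcard : Nat.card C = p ^ b) : IsMultiplyPretransitive G Ω 2 := by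
  classical
  haveI := Fintype.ofFinite C
  have hcomm : IsMulCommutative C := inferInstance
  have hc := hcomm.is_comm.comm
  letI : CommGroup C := { (inferInstance : Group C) with mul_comm := hc }
  have hdp : p ∣ Nat.card C := hcard ▸ dvd_pow_self p (by omega)
  have hlt : p < Nat.card C := by
    rw [hcard]
    calc p = p ^ 1 := (pow_one p).symm
      _ < p ^ b := Nat.pow_lt_pow_right hp.out.one_lt (by omega)
  obtain ⟨z, hz⟩ := exists_prime_orderOf_dvd_card' p hdp
  have hz1 : z ^ p = 1 := hz ▸ pow_orderOf_eq_one z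
  have hzne : z ≠ 1 := fun e => hp.out.one_lt.ne (by rw [← hz, e, orderOf_one])
  -- every suborbit meets the subgroup of order `p`
  have hmeet : ∀ s : C, s ≠ 1 → ∃ t ∈ Sub C a s, t ^ p = 1 := by
    intro s hs
    by_contra hcon
    push Not at hcon
    set T := Sub C a s
    have hT : Inv C a T := inv_sub htr s
    set L : Subgroup C :=
      { carrier := {l | ∀ t, t ∈ T ↔ l * t ∈ T}
        one_mem' := fun t => by rw [one_mul]
        mul_mem' := fun {u v} hu hv t => by rw [hv t, hu (v * t), mul_assoc]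
        inv_mem' := fun {u} hu t => by rw [hu (u⁻¹ * t), mul_inv_cancel_left] }
    have hN : ∀ l : C, l ∈ L ↔ ∀ v : Ω, Rel C T (((l : C) : G) • a) v ↔ Rel C T a v := by
      intro l
      constructor
      · intro hl v
        constructor
        · rintro ⟨t, ht, rfl⟩
          exact ⟨l * t, (hl t).1 ht, by rw [hc l t, Subgroup.coe_mul, mul_smul]⟩
        · rintro ⟨t, ht, rfl⟩
          exact ⟨l⁻¹ * t, (L.inv_mem hl t).1 ht, by rw [← mul_smul, ← Subgroup.coe_mul, hc (l⁻¹ * t) l, mul_inv_cancel_left]⟩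
      · intro hl t
        have e := hl (((l * t : C) : G) • a)
        constructor
        · intro hts
          obtain ⟨t', ht', e'⟩ := e.1 ⟨t, hts, by rw [← mul_smul, ← Subgroup.coe_mul, hc t l]⟩
          rwa [← eq_of_smul_eq hfree e']
        · intro hts
          obtain ⟨t', ht', e'⟩ := e.2 ⟨l * t, hts, rfl⟩
          rw [← mul_smul, ← Subgroup.coe_mul, hc t' l] at e'
          rwa [← mul_left_cancel (eq_of_smul_eq hfree e')]
    have hrel : ∀ (g : G) (u v : Ω), Rel C T (g • u) (g • v) ↔ Rel C T u v := fun g u v =>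
      ⟨fun h => by simpa using rel_smul hcomm htr hT g⁻¹ h, rel_smul hcomm htr hT g⟩
    have hL : Inv C a (L : Set C) := by
      intro g hg l hl
      obtain ⟨x, hx⟩ := htr (g • ((l : C) : G) • a)
      refine ⟨x, (hN x).2 fun v => ?_, hx.symm⟩
      have hga := mem_stabilizer_iff.1 hg
      obtain ⟨w, rfl⟩ : ∃ w, g • w = v := ⟨g⁻¹ • v, smul_inv_smul g v⟩
      rw [hx, hrel, (hN l).1 hl w]
      conv_rhs => rw [← hga, hrel]
    rcases subgroup_eq hprim hcomm htr hfree hL with hbot | htop
    · refine hzne ?_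
      have hzL : z ∈ L := fun t => ⟨fun ht => periodic hprim hcyc hdp hlt htr hfree hT ht (hcon t ht) hz1,
        fun ht => by
          have := periodic hprim hcyc hdp hlt htr hfree hT ht (hcon _ ht) (z := z⁻¹) (by rw [inv_pow, hz1, inv_one])
          rwa [inv_mul_cancel_left] at this⟩
      rwa [hbot, Subgroup.mem_bot] at hzL
    · refine one_notMem_sub (a := a) hfree hs ?_
      have : s⁻¹ ∈ L := htop ▸ Subgroup.mem_top _
      simpa using (this s).1 (self_mem_sub s)
  -- each contains `z`
  have hz_mem : ∀ s : C, s ≠ 1 → z ∈ Sub C a s := by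
    intro s hs
    obtain ⟨t, ht, htp⟩ := hmeet s hs
    have hto : orderOf t = p := orderOf_eq_prime htp fun e => one_notMem_sub hfree hs (e ▸ ht)
    by_cases hbig : ∃ u ∈ Sub C a s, u ^ p ≠ 1
    · exact order_p_mem hcomm htr hfree hcard hcyc hs ht hto hbig z hz
    push Not at hbig
    exfalso
    set T := Sub C a s
    have hT : Inv C a T := inv_sub htr s
    have hL : Inv C a (Subgroup.closure T : Set C) := by
      intro h hh l hl
      induction hl using Subgroup.closure_induction generalizing h with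
      | mem y hy =>
        obtain ⟨y', hy', e⟩ := hT h hh y hy
        exact ⟨y', Subgroup.subset_closure hy', e⟩
      | one => exact ⟨1, Subgroup.one_mem _, by simpa using mem_stabilizer_iff.1 hh⟩
      | mul y w hy hw ihy ihw =>
        obtain ⟨w', hw', ew⟩ := ihw h hh
        obtain ⟨y', hy', ey⟩ := ihy (((w' : C) : G)⁻¹ * h * (w : G)) (by
          rw [mem_stabilizer_iff, mul_smul, mul_smul, ew, inv_smul_smul])
        refine ⟨w' * y', Subgroup.mul_mem _ hw' hy', ?_⟩
        rw [mul_smul, mul_smul, inv_smul_eq_iff] at ey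
        rw [hc y w, Subgroup.coe_mul, mul_smul, ey, Subgroup.coe_mul, mul_smul]
      | inv y hy ihy =>
        obtain ⟨x, hx⟩ := htr (h • (((y⁻¹ : C) : G) • a))
        obtain ⟨y', hy', ey⟩ := ihy (((x : C) : G)⁻¹ * h * ((y⁻¹ : C) : G)) (by
          rw [mem_stabilizer_iff, mul_smul, mul_smul, ← hx, inv_smul_smul])
        refine ⟨y'⁻¹, Subgroup.inv_mem _ hy', ?_⟩
        rw [Subgroup.coe_inv, mul_smul, mul_smul, inv_smul_smul, mem_stabilizer_iff.1 hh] at ey
        rw [← hx]
        have hxy : x⁻¹ = y' := eq_of_smul_eq hfree (by rw [Subgroup.coe_inv]; exact ey)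
        rw [← hxy, inv_inv]
    rcases subgroup_eq hprim hcomm htr hfree hL with hbot | htop
    · have : t ∈ Subgroup.closure T := Subgroup.subset_closure ht
      rw [hbot, Subgroup.mem_bot] at this
      rw [this, orderOf_one] at hto
      exact hp.out.one_lt.ne hto
    · have hle : Subgroup.closure T ≤ (powMonoidHom p : C →* C).ker :=
        (Subgroup.closure_le _).2 fun u hu => hbig u hu
      rw [htop, top_le_iff] at hle
      obtain ⟨g, hg⟩ := IsCyclic.exists_monoid_generator (α := C)
      have hgo : orderOf g = p ^ b := hcard ▸ orderOf_eq_card_of_forall_mem_powers hg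
      have : g ^ p = 1 := MonoidHom.mem_ker.1 (hle ▸ Subgroup.mem_top g)
      have := Nat.le_of_dvd hp.out.pos (hgo ▸ orderOf_dvd_of_pow_eq_one this)
      rw [← hcard] at this
      omega
  haveI := hprim.toIsPretransitive
  rw [SubMulAction.ofStabilizer.isMultiplyPretransitive (a := a), is_one_pretransitive_iff]
  refine ⟨fun u v => ?_⟩
  have horb : ∀ w : Ω, w ≠ a → ∃ g ∈ stabilizer G a, g • w = ((z : C) : G) • a := by
    intro w hw
    obtain ⟨s, hs⟩ := htr w
    obtain ⟨g, hg, e⟩ := hz_mem s (fun e => hw (by rw [← hs, e, Subgroup.coe_one, one_smul]))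
    exact ⟨g, hg, by rw [← hs, e]⟩
  obtain ⟨g1, h1, e1⟩ := horb u u.2
  obtain ⟨g2, h2, e2⟩ := horb v v.2
  refine ⟨⟨g2⁻¹ * g1, Subgroup.mul_mem _ (Subgroup.inv_mem _ h2) h1⟩, Subtype.ext ?_⟩
  show (g2⁻¹ * g1) • (u : Ω) = v
  rw [mul_smul, e1, ← e2, inv_smul_smul]

end Cfsg.Agent.FGS3.BaerPrime
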